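import Cfsg.Agent.ST.Num
import Cfsg.Agent.Block.Frob3
import Cfsg.Agent.Block.Flat
import Cfsg.Agent.Block.Quot

/-!
The principal block for an abelian Sylow subgroup with automizer of order two (`TB`, `exists_tb`) and the
comparison with the faithful characters of a central extension (`TB.key`).
-/

set_option autoImplicit false

namespace Cfsg.Agent.ST

open Cfsg Cfsg.Agent.Block Cfsg.Agent.BMod Cfsg.Agent.Char Subgroup
open scoped ComplexConjugate

variable {p : ℕ} [hp : Fact p.Prime] {G : Type*} [Group G] [Fintype G]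

/-- The principal block consists of `1`, `χ` and the exceptional characters `Y`. -/
structure TB (p : ℕ) (M : Ideal AlgInt) (χ : IrrCharacter G) (a δ : ℤ) (Y : Finset (IrrCharacter G)) :
    Prop where
  ne : χ ≠ irrOne G
  blk : ∀ ψ, ψ ∈ principalBlock M G ↔ ψ = irrOne G ∨ ψ = χ ∨ ψ ∈ Y
  h1 : irrOne G ∉ Y
  h2 : χ ∉ Y
  sa : a = 1 ∨ a = -1
  sd : δ = 1 ∨ δ = -1
  sing : ∀ g, p ∣ orderOf g → (χ : G → ℂ) g = a
  reg : ∀ θ ∈ Y, ∀ g, ¬ p ∣ orderOf g → (θ : G → ℂ) g = δ * (1 + a * (χ : G → ℂ) g)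
  nonempty : Y.Nonempty

variable {M : Ideal AlgInt} [PMod p M]

theorem exists_tb {P : Subgroup G} (h : Frob p P) (h2 : Nat.card (autE P) = 2) (h9 : 9 ≤ Nat.card P) :
    ∃ (χ : IrrCharacter G) (a δ : ℤ) (Y : Finset (IrrCharacter G)), TB p M χ a δ Y := by
  classical
  obtain ⟨X, Y, a, c, δ, ζ, H⟩ := h.exists_fb (M := M) (by omega)
  have h1 := H.sq
  have h6 := H.card
  rw [← Finset.add_sum_erase _ _ H.one, H.a_one, h2] at h1
  rw [h2] at h6
  have h3 : 0 ≤ ∑ χ ∈ X.erase (irrOne G), a χ ^ 2 := Finset.sum_nonneg fun _ _ => sq_nonneg _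
  have h5 : (4 : ℤ) ≤ Y.card := by omega
  obtain rfl : c = 0 := by
    by_contra h0
    have h7 : 1 ≤ c ^ 2 := by have : 0 < c ^ 2 := by positivity
                              omega
    push_cast at h1
    nlinarith [sq_nonneg (c - δ)]
  have h7 : ∑ χ ∈ X.erase (irrOne G), a χ ^ 2 = 1 := by
    rcases H.sign with e | e <;> simp [e] at h1 <;> omega
  have h8 : ∀ χ ∈ X.erase (irrOne G), a χ = 1 ∨ a χ = -1 := fun χ hχ => by
    have := h7 ▸ Finset.single_le_sum (f := fun χ => a χ ^ 2) (fun _ _ => sq_nonneg _) hχ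
    have := (H.valX χ (Finset.mem_of_mem_erase hχ)).1
    have : a χ < 2 := by nlinarith
    have : -2 < a χ := by nlinarith
    omega
  rw [Finset.sum_congr rfl (g := fun _ => 1) fun χ hχ => by rcases h8 χ hχ with e | e <;> simp [e]] at h7
  obtain ⟨χ, e⟩ := Finset.card_eq_one.1 (show (X.erase (irrOne G)).card = 1 by
    simp only [Finset.sum_const, nsmul_eq_mul, mul_one] at h7; exact_mod_cast h7)
  have h10 : χ ∈ X.erase (irrOne G) := by simp [e]
  have hX : X = {irrOne G, χ} := by rw [← Finset.insert_erase H.one, e]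
  have hne := Finset.ne_of_mem_erase h10
  refine ⟨χ, a χ, δ, Y, hne, fun ψ => by rw [H.blk, hX]; simp [or_assoc],
    Finset.disjoint_left.1 H.disj H.one, Finset.disjoint_left.1 H.disj (Finset.mem_of_mem_erase h10),
    h8 χ h10, H.sign, fun g hg => ?_, fun θ hθ g hg => ?_, Finset.card_pos.1 (by omega)⟩
  · obtain ⟨y, hy⟩ := exists_isPPart p g
    obtain ⟨S, rfl⟩ := h.syl
    obtain ⟨Q, hQ⟩ := (isPGroup_zpowers_of_orderOf (IsPPart.orderOf_eq hy)).exists_le_sylow
    obtain ⟨k, rfl⟩ := MulAction.exists_smul_eq G Q S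
    rw [← χ.2.isClassFunction g k]
    refine (H.valX χ (Finset.mem_of_mem_erase h10)).2 _ _ (IsPPart.conj hy k)
      ⟨y, hQ (mem_zpowers y), rfl⟩ fun e => (IsPPart.eq_one_iff hy).1 (by simpa using e) hg
  · have := (H.reg hg).2 θ hθ
    rw [hX, Finset.sum_pair hne.symm, H.a_one] at this
    simp only [irrOne_apply] at this
    rcases H.sign with e | e <;> simp only [e] at this ⊢ <;> push_cast at this ⊢ <;>
      first | linear_combination -this | linear_combination this

variable {χ : IrrCharacter G} {a δ : ℤ} {Y : Finset (IrrCharacter G)}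

open Classical in
omit hp [PMod p M] in
lemma TB.filter (h : TB p M χ a δ Y) :
    Finset.univ.filter (· ∈ principalBlock M G) = insert (irrOne G) (insert χ Y) := by
  ext; simp [h.blk]

open Classical in
omit hp [PMod p M] in
lemma TB.sum (h : TB p M χ a δ Y) (f : IrrCharacter G → ℂ) :
    ∑ ψ with ψ ∈ principalBlock M G, f ψ = f (irrOne G) + f χ + ∑ θ ∈ Y, f θ := by
  rw [h.filter, Finset.sum_insert (by simp [h.ne.symm, h.h1]), Finset.sum_insert h.h2, add_assoc]

lemma TB.ne_zero (h : TB p M χ a δ Y) : 1 + a * (χ : G → ℂ) 1 ≠ 0 := fun e => by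
  obtain ⟨θ, hθ⟩ := h.nonempty
  have := h.reg θ hθ 1 (by simpa using hp.out.ne_one)
  rw [e, mul_zero] at this
  exact θ.2.apply_one_ne_zero this

lemma TB.vanish (h : TB p M χ a δ Y) {g : G} (hg : p ∣ orderOf g) :
    1 + δ * ∑ θ ∈ Y, (θ : G → ℂ) g = 0 := by
  classical
  have := sum_block_orth_weak (IsPBlock.isBlockUnion (isPBlock_principalBlock (M := M))) (g := 1) (h := g⁻¹)
    (by simpa using hp.out.ne_one) (by simpa using hg)
  rw [← Finset.sum_filter, h.sum, Finset.sum_congr rfl fun θ hθ => by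
    rw [h.reg θ hθ 1 (by simpa using hp.out.ne_one)], ← Finset.mul_sum, inv_inv, h.sing g hg] at this
  simp only [irrOne_apply, inv_inv] at this
  exact (mul_eq_zero.1 (by linear_combination this)).resolve_left h.ne_zero

section Cen
variable {H : Type*} [Group H] [Fintype H] {z : H}

/-- The scalar by which a central element acts. -/
noncomputable def sc (z : H) (ψ : IrrCharacter H) : ℂ := (ψ : H → ℂ) z / (ψ : H → ℂ) 1

lemma sc_mul (hz : z ∈ center H) (ψ : IrrCharacter H) (k : ℕ) (g : H) :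
    (ψ : H → ℂ) (z ^ k * g) = sc z ψ ^ k * (ψ : H → ℂ) g := by
  obtain ⟨lam, hlam⟩ := IsIrrCharacter.exists_hom_of_le_center ψ.2 _ le_rfl
  have h1 := hlam ⟨z, hz⟩ 1
  rw [mul_one] at h1
  rw [sc, h1, mul_div_cancel_right₀ _ ψ.2.apply_one_ne_zero, ← Units.val_pow_eq_pow_val, ← map_pow, ← hlam]
  rfl

omit hp in
lemma sc_pow (hz : z ∈ center H) (ho : orderOf z = p) (ψ : IrrCharacter H) : sc z ψ ^ p = 1 := by
  have := sc_mul hz ψ p 1
  rw [← ho, pow_orderOf_eq_one, mul_one, ho] at this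
  exact mul_right_cancel₀ ψ.2.apply_one_ne_zero (by rw [← this, one_mul])

variable {π : H →* G}

open Classical in
lemma TB.sum_eq (h : TB p M χ a δ Y) (hπ : Function.Surjective π) (hz : z ∈ center H) (ho : orderOf z = p)
    (hk : π.ker = zpowers z) (F : IrrCharacter H → ℂ)
    (hF : ∀ k, 0 < k → k < p → ∑ ψ with ψ ∈ principalBlock M H, sc z ψ ^ k * F ψ = 0) {ω : ℂ}
    (hω : ω ^ p = 1) : ∑ ψ ∈ (Finset.univ.filter (· ∈ principalBlock M H)) with sc z ψ = ω, F ψ =
      F (infl π hπ (irrOne G)) + F (infl π hπ χ) + ∑ θ ∈ Y, F (infl π hπ θ) := by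
  rw [fourier' _ hp.out.pos _ (sc_pow hz ho) F hF hω, ← h.sum fun θ => F (infl π hπ θ),
    ← Finset.sum_image fun _ _ _ _ e => infl_injective π hπ e]
  have hB := preimage_infl_principalBlock (M := M) hπ (hk ▸ isPGroup_zpowers_of_orderOf ⟨1, by simpa⟩)
    fun g _ => mem_centralizer_iff.2 fun x hx =>
      (mem_center_iff.1 (zpowers_le.2 hz (by rw [← hk]; exact hx)) g).symm
  congr 1
  ext ψ
  simp only [Finset.mem_filter, Finset.mem_univ, true_and, Finset.mem_image, ← hB, Set.mem_preimage]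
  constructor
  · rintro ⟨h1, h2⟩
    obtain ⟨φ, rfl⟩ := (mem_range_infl hπ (χ := ψ)).2 fun g hg => by
      rw [hk, ← mem_powers_iff_mem_zpowers] at hg
      obtain ⟨k, rfl⟩ := hg
      simpa [h2] using sc_mul hz ψ k 1
    exact ⟨φ, h1, rfl⟩
  · rintro ⟨φ, h1, rfl⟩
    refine ⟨h1, ?_⟩
    rw [sc, infl_apply, infl_apply, show π z = 1 from hk.ge (mem_zpowers z), map_one,
      div_self φ.2.apply_one_ne_zero]

omit hp in
lemma isPPart_pow (hz : z ∈ center H) (ho : orderOf z = p) [Fact p.Prime] (k : ℕ) {y : H}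
    (hy : ¬ p ∣ orderOf y) : IsPPart p (z ^ k * y) (z ^ k) :=
  isPPart_mul (orderOf_eq_pow_of_mem (isPGroup_zpowers_of_orderOf ⟨1, by simpa⟩)
    (pow_mem (mem_zpowers z) k)) hy (mem_center_iff.1 (pow_mem hz k) y).symm

lemma sum_inner (hπ : Function.Surjective π) (φ : G → ℂ) {Φ : G → ℂ} (hΦ : ∀ g, p ∣ orderOf g → Φ g = 0) :
    ∑ g : H, (Nat.card H : ℂ)⁻¹ * conj (Φ (π g)) * φ (π (regPart p g)) = classInner φ Φ := by
  rw [← Char.classInner_comp_of_surjective _ _ π hπ, classInner_def, Finset.mul_sum]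
  refine Finset.sum_congr rfl fun g _ => ?_
  by_cases hg : p ∣ orderOf (π g)
  · simp [hΦ _ hg]
  · rw [← regPart_map, regPart_of_not_dvd hg]; ring

theorem TB.key (h : TB p M χ a δ Y) (hp2 : p ≠ 2) (hπ : Function.Surjective π) (hz : z ∈ center H)
    (ho : orderOf z = p) (hk : π.ker = zpowers z) {x y t : H} (hx : ∃ k, orderOf x = p ^ k)
    (hxy : y * x * y⁻¹ = z * x) (ht : orderOf t = 2) :
    (χ : G → ℂ) (π t) = (χ : G → ℂ) 1 ∨ a * (χ : G → ℂ) 1 = 1 := by
  classical
  have hB := IsPBlock.isBlockUnion (isPBlock_principalBlock (M := M) (G := H))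
  obtain ⟨ω, hω1, hω⟩ : ∃ ω : ℂ, ω ≠ 1 ∧ ω ^ p = 1 :=
    ⟨_, (Complex.isPrimitiveRoot_exp p hp.out.ne_zero).ne_one hp.out.one_lt,
      (Complex.isPrimitiveRoot_exp p hp.out.ne_zero).pow_eq_one⟩
  have hz1 : ∀ k, 0 < k → k < p → z ^ k ≠ 1 := fun k h1 h2 => pow_ne_one_of_lt_orderOf h1.ne' (ho ▸ h2)
  have hr : ∀ g : H, ¬ p ∣ orderOf (π (regPart p g)) := fun g =>
    by rw [← regPart_map]; exact not_dvd_orderOf_regPart p _
  have h1 : ¬ p ∣ orderOf (1 : H) := by simpa using hp.out.ne_one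
  have ht' : ¬ p ∣ orderOf t := by rwa [ht, Nat.prime_dvd_prime_iff_eq hp.out Nat.prime_two]
  have ha : (a : ℂ) * a = 1 := by rcases h.sa with e | e <;> simp [e]
  have hδ : (δ : ℂ) * δ = 1 := by rcases h.sd with e | e <;> simp [e]
  let Φ₁ : G → ℂ := (irrOne G : G → ℂ) + (δ : ℂ) • ∑ θ ∈ Y, (θ : G → ℂ)
  let Φ₂ : G → ℂ := (a : ℂ) • (χ : G → ℂ) + (δ : ℂ) • ∑ θ ∈ Y, (θ : G → ℂ)
  have v1 : ∀ g, p ∣ orderOf g → Φ₁ g = 0 := fun g hg => by simpa [Φ₁] using h.vanish hg
  have v2 : ∀ g, p ∣ orderOf g → Φ₂ g = 0 := fun g hg => by simpa [Φ₂, h.sing g hg, ha] using h.vanish hg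
  have gY := (isGeneralizedCharacter_sum Y _ fun θ _ => θ.2.isGeneralizedCharacter).intCast_smul δ
  have g1 : IsGeneralizedCharacter G Φ₁ := (irrOne G).2.isGeneralizedCharacter.add gY
  have g2 : IsGeneralizedCharacter G Φ₂ := (χ.2.isGeneralizedCharacter.intCast_smul a).add gY
  have hI : ∀ {Φ : G → ℂ}, IsGeneralizedCharacter G Φ → ∀ ψ : IrrCharacter H, ∃ n : ℤ,
      ∑ g, (Nat.card H : ℂ)⁻¹ * conj (Φ (π g)) * (ψ : H → ℂ) (regPart p g) = n := fun hΦ ψ => by
    obtain ⟨n, hn⟩ := (isGenChar_regPart p ψ.2.isGeneralizedCharacter).exists_int_classInner (hΦ.comp π)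
    refine ⟨n, ?_⟩
    rw [← hn, classInner_def, Finset.mul_sum]
    exact Finset.sum_congr rfl fun g _ => by ring
  choose A hA using hI g1
  choose B hB' using hI g2
  have i1 : ∀ φ : IrrCharacter G, φ ∉ Y → classInner (φ : G → ℂ) ((δ : ℂ) • ∑ θ ∈ Y, (θ : G → ℂ)) = 0 :=
    fun φ hφ => by
      rw [classInner_smul_right, classInner_sum_right, Finset.sum_eq_zero, mul_zero]
      exact fun θ hθ => by rw [classInner_irr, if_neg (by rintro rfl; exact hφ hθ)]
  have hx1 : π x ≠ 1 := fun e => by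
    have h2 : x ∈ center H := zpowers_le.2 hz (hk.le e)
    rw [mem_center_iff.1 h2 y, mul_inv_cancel_right, eq_comm, mul_eq_right] at hxy
    exact hz1 1 one_pos hp.out.one_lt (by simpa using hxy)
  have hx2 : ∃ k, orderOf (π x) = p ^ k := IsPPart.orderOf_eq (IsPPart.map π (isPPart_self hx))
  have := final ((Finset.univ.filter (· ∈ principalBlock M H)).filter (sc z · = ω))
    (fun ψ g => (ψ : H → ℂ) (regPart p g)) (fun g => a * (χ : G → ℂ) (π (regPart p g)))
    (fun g => (Nat.card H : ℂ)⁻¹ * conj (Φ₁ (π g))) (fun g => (Nat.card H : ℂ)⁻¹ * conj (Φ₂ (π g))) Y.card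
    (fun g g' => ?_) ?_ ?_ ?_ ?_ hA hB' (o := 1) (t := t) (X := a * charDegree (χ : G → ℂ))
    (by simp [regPart_of_not_dvd h1, deg_cast_irr])
    (mul_ne_zero (by rcases h.sa with e | e <;> simp [e]) (Int.natCast_pos.2 χ.2.charDegree_pos).ne')
    hp.out ?_ (fun ψ hψ => ⟨charDegree (ψ : H → ℂ), by simp [regPart_of_not_dvd h1, deg_cast_irr],
      (Int.natCast_pos.2 ψ.2.charDegree_pos).ne', ?_⟩)
    (b := Y.card * ((1 + a * (χ : G → ℂ) (π t)) ^ 2 / (1 + a * (χ : G → ℂ) 1))) fun g => ?_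
  · rw [regPart_of_not_dvd ht'] at this
    rcases this with e | e
    · left
      push_cast at e
      rw [deg_cast_irr] at e
      exact mul_left_cancel₀ (left_ne_zero_of_mul_eq_one ha) e
    · right
      rw [← deg_cast_irr]; exact_mod_cast e
  · rw [h.sum_eq hπ hz ho hk _ (fun k k0 kp => ?_) hω, Finset.sum_congr rfl fun θ hθ => by
      rw [infl_apply, infl_apply, h.reg θ hθ _ (hr g), h.reg θ hθ _ (hr g')]]
    · simp only [infl_apply, irrOne_apply, map_one, map_mul, map_add, map_intCast, Finset.sum_const,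
        nsmul_eq_mul]
      linear_combination (-(χ : G → ℂ) (π (regPart p g)) * conj ((χ : G → ℂ) (π (regPart p g')))) * ha +
        Y.card * ((1 + a * (χ : G → ℂ) (π (regPart p g))) * (1 + a * conj ((χ : G → ℂ) (π (regPart p g'))))) * hδ
    · rw [← sum_block_orth hB (isPPart_pow hz ho k (not_dvd_orderOf_regPart p g))
        (isPPart_one_iff.2 (not_dvd_orderOf_regPart p g')) (by simpa using hz1 k k0 kp), Finset.sum_filter]
      refine Finset.sum_congr rfl fun ψ _ => ?_
      rw [sc_mul hz, ψ.2.isCharacter.apply_inv, mul_assoc]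
  · have := sum_inner hπ (irrOne G : G → ℂ) v1
    simp only [irrOne_apply, mul_one] at this
    rw [this, classInner_add_right, i1 _ h.h1, classInner_irr]; simp
  · have := sum_inner hπ ((a : ℂ) • (χ : G → ℂ)) v1
    simp only [Pi.smul_apply, smul_eq_mul] at this
    rw [this, classInner_smul_left, classInner_add_right, i1 _ h.h2, classInner_irr]; simp [h.ne]
  · have := sum_inner hπ (irrOne G : G → ℂ) v2
    simp only [irrOne_apply, mul_one] at this
    rw [this, classInner_add_right, i1 _ h.h1, classInner_smul_right, classInner_irr]; simp [h.ne.symm]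
  · have := sum_inner hπ ((a : ℂ) • (χ : G → ℂ)) v2
    simp only [Pi.smul_apply, smul_eq_mul] at this
    rw [this, classInner_smul_left, classInner_add_right, i1 _ h.h2, classInner_smul_right, classInner_irr]
    simp [ha]
  · have h2 := red_apply_pElt (M := M) χ.2.isCharacter hx2
    rw [h.sing _ (by_contra fun e => hx1 (eq_one_of_orderOf_pow_of_not_dvd hx2 e)), ← deg_cast_irr,
      red_intCast, red_natCast] at h2
    have h3 : (p : ℤ) ∣ charDegree (χ : G → ℂ) - a := (intCast_F_eq_zero_iff (M := M) _).1 (by simp [h2])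
    rcases h.sa with e | e <;> rw [e] at h3 ⊢
    · simpa using h3
    · rw [show -1 * (charDegree (χ : G → ℂ) : ℤ) - 1 = -(charDegree (χ : G → ℂ) - -1) by ring]
      exact h3.neg_right
  · have h2 := red_apply_pElt (M := M) ψ.2.isCharacter hx
    have h3 := sc_mul hz ψ 1 x
    rw [pow_one, pow_one, ← hxy, ψ.2.isClassFunction, (Finset.mem_filter.1 hψ).2] at h3
    rw [show (ψ : H → ℂ) x = 0 from by_contra fun e => hω1 (mul_right_cancel₀ e (by rw [← h3, one_mul])),
      ← deg_cast_irr, red_natCast, eq_comm] at h2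
    exact Int.natCast_dvd_natCast.2 ((natCast_F_eq_zero_iff (M := M) _).1 (by simpa using h2))
  · rw [regPart_of_not_dvd ht', regPart_of_not_dvd h1, h.sum_eq hπ hz ho hk _ (fun k k0 kp => ?_) hω,
      Finset.sum_congr rfl fun θ hθ => by
      rw [infl_apply, infl_apply, infl_apply, h.reg θ hθ _ (hr g), h.reg θ hθ _ (regPart_of_not_dvd ht' ▸ hr t),
        h.reg θ hθ _ (regPart_of_not_dvd h1 ▸ hr 1)]]
    · simp only [infl_apply, irrOne_apply, map_one, Finset.sum_const, nsmul_eq_mul, Int.cast_mul,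
        Int.cast_natCast, deg_cast_irr]
      have := h.ne_zero
      have := χ.2.apply_one_ne_zero
      rcases h.sa with rfl | rfl <;> rcases h.sd with rfl | rfl <;> push_cast at * <;> field_simp
    · have hu := isPPart_pow hz ho k (not_dvd_orderOf_regPart p g)
      rw [← sum_inner_mul_div_eq_zero (isClassFunction_col (principalBlock M H) (z ^ k * regPart p g)⁻¹)
        (u := t) (v := t) fun x y hx hy => ?_, Finset.sum_filter]
      · refine Finset.sum_congr rfl fun ψ _ => ?_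
        rw [classInner_col, inv_inv, sc_mul hz]
        split_ifs
        · ring
        · simp
      obtain ⟨w, hw⟩ := exists_isPPart p (x * y)
      refine col_eq_zero hB (IsPPart.inv hu) hw fun e => ?_
      have hc : (z ^ k)⁻¹ ∈ center H := inv_mem (pow_mem hz k)
      obtain ⟨c, rfl⟩ := isConj_iff.1 e
      rw [mem_center_iff.1 hc c, mul_inv_cancel_right] at hw
      have h2 := IsPPart.conj hw x
      rw [Invol.conj_prod_left (Invol.mul_self_of (Invol.orderOf_of_isConj hx ▸ ht))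
        (Invol.mul_self_of (Invol.orderOf_of_isConj hy ▸ ht)), mem_center_iff.1 hc x,
        mul_inv_cancel_right] at h2
      have h3 := IsPPart.unique h2 (IsPPart.inv hw)
      rw [inv_inv, inv_eq_iff_mul_eq_one, ← pow_add, ← orderOf_dvd_iff_pow_eq_one, ho, ← two_mul] at h3
      exact absurd (Nat.le_of_dvd k0 (((Nat.coprime_primes hp.out Nat.prime_two).2 hp2).dvd_of_dvd_mul_left h3))
        (not_le.2 kp)

end Cen

end Cfsg.Agent.ST
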