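import Cfsg.Agent.ST.Ext
import Cfsg.Agent.ST.Blk
import Cfsg.Agent.Block.Q8
import Cfsg.Agent.LieM.Yen
import Cfsg.Agent.Transfer.Abelian

/-!
The Smith–Tyrer theorem (`smith_tyrer`).
-/

set_option autoImplicit false

namespace Cfsg.Agent.ST

open Cfsg Cfsg.Agent.Block Cfsg.Agent.BMod Cfsg.Agent.Char Subgroup

variable {p : ℕ} [hp : Fact p.Prime] {G : Type*} [Group G] [Finite G]

/-- The normalizer of `P` acts on `P` as `±1`, and some element inverts `P`. -/
structure PM (P : Subgroup G) : Prop where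
  pm : ∀ n ∈ normalizer (P : Set G), (∀ u ∈ P, n⁻¹ * u * n = u) ∨ (∀ u ∈ P, n⁻¹ * u * n = u⁻¹)
  ex : ∃ t ∈ normalizer (P : Set G), ∀ u ∈ P, t⁻¹ * u * t = u⁻¹

omit [Finite G] in
lemma mem_cent_iff {P : Subgroup G} {n : G} : n ∈ centralizer (P : Set G) ↔ ∀ u ∈ P, n⁻¹ * u * n = u :=
  forall₂_congr fun u _ => by rw [mul_assoc, inv_mul_eq_iff_eq_mul]

omit [Finite G] in
lemma eq_one_of_eq_inv (hp2 : p ≠ 2) {P : Subgroup G} (hP : IsPGroup p P) {u : G} (hu : u ∈ P)
    (h : u = u⁻¹) : u = 1 := by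
  obtain ⟨k, hk⟩ := orderOf_eq_pow_of_mem hP hu
  exact Invol.eq_one_of_odd_of_mul_self (hk ▸ (hp.out.odd_of_ne_two hp2).pow) (mul_eq_one_iff_eq_inv.2 h)

omit [Finite G] hp in
lemma PM.mul_mem {P : Subgroup G} {a b : G} (ha : ∀ u ∈ P, a⁻¹ * u * a = u⁻¹)
    (hb : ∀ u ∈ P, b⁻¹ * u * b = u⁻¹) : a * b ∈ centralizer (P : Set G) := mem_cent_iff.2 fun u hu => by
  rw [mul_inv_rev, show b⁻¹ * a⁻¹ * u * (a * b) = b⁻¹ * (a⁻¹ * u * a) * b by group, ha u hu,
    hb _ (inv_mem hu), inv_inv]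

theorem core (hp2 : p ≠ 2) (P : Sylow p G) (hab : IsMulCommutative (P : Subgroup G))
    (hnc : ¬ IsCyclic (P : Subgroup G)) (h : PM (P : Subgroup G)) (hO : pPrimeCore p G = ⊥) :
    (P : Subgroup G).Normal := by
  classical
  have := Fintype.ofFinite G
  obtain ⟨u₀, hu₀⟩ : ∃ u : (P : Subgroup G), u ≠ 1 := by
    by_contra! h
    have : Subsingleton (P : Subgroup G) := ⟨fun a b => by rw [h a, h b]⟩
    exact hnc isCyclic_of_subsingleton
  have hu₁ : (u₀ : G) ≠ 1 := fun e => hu₀ (Subtype.ext e)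
  have hF : Frob p (P : Subgroup G) := ⟨⟨P, rfl⟩, hab.1.1, fun y hy h1 n hn hc =>
    mem_cent_iff.2 ((h.pm n hn).resolve_right fun e => h1 (eq_one_of_eq_inv hp2 P.isPGroup' hy (by
      rw [← e y hy, mul_assoc, ← mem_centralizer_singleton_iff.1 hc, inv_mul_cancel_left])))⟩
  obtain ⟨s, hs, hs'⟩ := h.ex
  have h2 : (centralizer ((P : Subgroup G) : Set G)).relIndex (normalizer ((P : Subgroup G) : Set G)) = 2 :=
    relIndex_eq_two_iff_exists_notMem_and.2 ⟨s, hs, fun e => hu₁ (eq_one_of_eq_inv hp2 P.isPGroup' u₀.2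
      ((mem_cent_iff.1 e _ u₀.2).symm.trans (hs' _ u₀.2))), fun b hb =>
        (h.pm b hb).elim (fun e => Or.inr (mem_cent_iff.2 e)) fun e => Or.inl (PM.mul_mem e hs')⟩
  have h9 : 9 ≤ Nat.card (P : Subgroup G) := by
    obtain ⟨k, hk⟩ := P.isPGroup'.exists_card_eq
    have h3 : 3 ≤ p := by have := hp.out.two_le; omega
    have : 2 ≤ k := by
      by_contra! hk2
      refine hnc (isCyclic_of_card_dvd_prime (p := p) ?_)
      rw [hk]; interval_cases k <;> simp
    rw [hk]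
    exact (Nat.pow_le_pow_left h3 2).trans (Nat.pow_le_pow_right hp.out.pos this)
  obtain ⟨M, hM⟩ := exists_pMod p
  obtain ⟨χ, a, δ, Y, T⟩ := exists_tb (M := M) hF (by rw [card_autE, h2]) h9
  obtain ⟨H, _, _, π, z, x, y, hπ, hz, ho, hk, hx, hxy⟩ := exists_ext P hab hnc fun n hn u hu =>
    (h.pm n hn).imp (· u hu) (· u hu)
  have := Fintype.ofFinite H
  obtain ⟨t, ht⟩ := exists_prime_orderOf_dvd_card' (G := H) 2 (by
    rw [← h2]
    exact ((relIndex_dvd_card _ _).trans (card_subgroup_dvd_card _)).trans (card_dvd_of_surjective π hπ))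
  have hxp : ∃ k, orderOf x = p ^ k := orderOf_eq_pow_of_mem (P.isPGroup'.comap_of_ker_isPGroup π
    (hk ▸ isPGroup_zpowers_of_orderOf ⟨1, by simpa⟩)) hx
  have h1 : a * (χ : G → ℂ) 1 = 1 := by
    refine (T.key hp2 hπ hz ho hk hxp hxy ht).elim (fun e => ?_) id
    have := χ.2.isCharacter.isClassFunction.normal_charKer
    by_cases hd : p ∣ Nat.card (charKer (χ : G → ℂ))
    · obtain ⟨u, hu⟩ := exists_prime_orderOf_dvd_card' p hd
      rw [← χ.2.isCharacter.mem_charKer.1 u.2, T.sing u (by rw [orderOf_coe, hu])]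
      rcases T.sa with e | e <;> simp [e]
    · have h3 := χ.2.isCharacter.mem_charKer.2 e
      rw [Solv.eq_bot_of_pPrimeCore_eq_bot hO ((hp.out.coprime_iff_not_dvd.2 hd).symm), mem_bot,
        ← MonoidHom.mem_ker, hk] at h3
      have h4 := orderOf_dvd_of_mem_zpowers h3
      rw [ht, ho, Nat.prime_dvd_prime_iff_eq Nat.prime_two hp.out] at h4
      exact absurd h4.symm hp2
  obtain rfl : a = 1 := T.sa.resolve_right fun e => by
    rw [e, ← deg_cast_irr] at h1
    have : (-1 : ℤ) * charDegree (χ : G → ℂ) = 1 := by exact_mod_cast h1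
    omega
  obtain ⟨lam, hlam⟩ := χ.2.isCharacter.exists_hom_of_apply_one (by simpa using h1)
  have h3 : ∀ g, p ∣ orderOf g → g ∈ lam.ker := fun g hg => Units.ext (by simpa [hlam] using T.sing g hg)
  have h4 : ∀ u ∈ (P : Subgroup G), u ≠ 1 → p ∣ orderOf u := fun u hu h1 => by_contra fun e =>
    h1 (eq_one_of_orderOf_pow_of_not_dvd (orderOf_eq_pow_of_mem P.isPGroup' hu) e)
  have h5 : (P : Subgroup G) ≤ lam.ker := fun u hu => by
    by_cases e : u = 1
    · exact e ▸ one_mem _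
    · exact h3 u (h4 u hu e)
  have h6 : centralizer ((P : Subgroup G) : Set G) ≤ lam.ker := fun c hc => by
    by_cases e : p ∣ orderOf c
    · exact h3 c e
    · exact (mul_mem_cancel_left (h5 u₀.2)).1 (h3 _ (dvd_orderOf_mul
        (orderOf_eq_pow_of_mem P.isPGroup' u₀.2) hu₁ e (hc _ u₀.2)))
  obtain ⟨Q, K, hK, hc⟩ := complement_of_inf_le P h5 fun n hn hn' => mem_cent_iff.2
    ((h.pm n hn').resolve_right fun e => T.ne (Subtype.ext (by
      have h7 : lam.ker = ⊤ := by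
        rw [← P.normalizer_sup_eq_top' h5, eq_comm, sup_eq_right]
        exact fun b hb => (h.pm b hb).elim (fun e' => h6 (mem_cent_iff.2 e'))
          fun e' => (mul_mem_cancel_right hn).1 (h6 (PM.mul_mem e' e))
      ext g
      rw [hlam, irrOne_apply]
      exact congrArg Units.val (h7.ge (mem_top g)))))
  have h7 : K = ⊥ := by
    rw [eq_bot_iff, ← map_le_map_iff_of_injective lam.ker.subtype_injective, Subgroup.map_bot, ← hO]
    refine (map_mono (Solv.le_pPrimeCore ?_)).trans (Solv.map_subtype_pPrimeCore_le _)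
    rw [← hc.index_eq_card]
    exact (hp.out.coprime_iff_not_dvd.2 Q.not_dvd_index).symm
  rw [h7, isComplement'_bot_left] at hc
  have h8 : IsPGroup p lam.ker := (hc ▸ Q.isPGroup').of_equiv topEquiv
  rw [← P.is_maximal' h8 h5]
  infer_instance

lemma lift_norm {G' : Type*} [Group G'] {f : G →* G'} (hf : Function.Surjective f) (P : Sylow p G) {m : G'}
    (hm : m ∈ normalizer (((P : Subgroup G).map f : Subgroup G') : Set G')) :
    ∃ n ∈ normalizer ((P : Subgroup G) : Set G), f n = m := by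
  obtain ⟨g, rfl⟩ := hf m
  have h1 : (P : Subgroup G) ≤ ((P : Subgroup G).map f).comap f := le_comap_map _ _
  have h2 : ((g • P : Sylow p G) : Subgroup G) ≤ ((P : Subgroup G).map f).comap f := by
    rintro _ ⟨u, hu, rfl⟩
    simpa using (mem_normalizer_iff.1 hm (f u)).1 ⟨u, hu, rfl⟩
  obtain ⟨l, hl⟩ := MulAction.exists_smul_eq (((P : Subgroup G).map f).comap f) (P.subtype h1)
    ((g • P).subtype h2)
  rw [Sylow.smul_subtype] at hl
  have h3 : (l : G) • P = g • P := Sylow.subtype_injective hl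
  obtain ⟨u, hu, e⟩ := l.2
  refine ⟨u * ((l : G)⁻¹ * g), mul_mem (le_normalizer hu) (Sylow.smul_eq_iff_mem_normalizer.1 ?_), ?_⟩
  · rw [mul_smul, ← h3, inv_smul_smul]
  · rw [map_mul, map_mul, map_inv, e, mul_inv_cancel_left]

theorem smith_tyrer (hp2 : p ≠ 2) (P : Sylow p G) (hab : IsMulCommutative (P : Subgroup G))
    (hnc : ¬ IsCyclic (P : Subgroup G))
    (h2 : (centralizer ((P : Subgroup G) : Set G)).relIndex (normalizer ((P : Subgroup G) : Set G)) = 2)
    (hG : pResidual p G = ⊤) : PLengthLE p 1 G := by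
  have h1 := Transfer.abelian_hall_commutator_inf hab le_normalizer le_rfl
    (Transfer.sylow_coprime_relIndex P le_normalizer)
  rw [← Transfer.sylow_inf_pResidual_of_comm P hab, hG, inf_top_eq] at h1
  have h3 : ∀ a ∈ normalizer ((P : Subgroup G) : Set G), ∀ b ∈ normalizer ((P : Subgroup G) : Set G),
      a ∉ centralizer ((P : Subgroup G) : Set G) → b ∉ centralizer ((P : Subgroup G) : Set G) →
      a * b ∈ centralizer ((P : Subgroup G) : Set G) := fun a ha b hb ha' hb' =>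
    (mul_mem_iff_of_index_two h2 (a := ⟨a, ha⟩) (b := ⟨b, hb⟩)).2 (iff_of_false ha' hb')
  have h4 : ∀ n ∈ normalizer ((P : Subgroup G) : Set G), n ∉ centralizer ((P : Subgroup G) : Set G) →
      ∀ u ∈ (P : Subgroup G), n⁻¹ * u * n = u⁻¹ := fun n hn hn' u hu => by
    have h5 : n⁻¹ * u * n ∈ (P : Subgroup G) := (mem_normalizer_iff''.1 hn u).1 hu
    have h6 : n⁻¹ * (u * (n⁻¹ * u * n)) * n = u * (n⁻¹ * u * n) := by
      rw [show n⁻¹ * (u * (n⁻¹ * u * n)) * n = n⁻¹ * u * n * ((n * n)⁻¹ * u * (n * n)) by group,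
        mem_cent_iff.1 (h3 n hn n hn hn' hn') u hu]
      exact congrArg Subtype.val (hab.1.1 ⟨_, h5⟩ ⟨u, hu⟩)
    refine eq_inv_of_mul_eq_one_right (mem_bot.1 (h1.le ⟨mul_mem hu h5, fun b hb => ?_⟩))
    by_cases e : b ∈ centralizer ((P : Subgroup G) : Set G)
    · exact (e _ (mul_mem hu h5)).symm
    · have h7 := h3 b hb n⁻¹ (inv_mem hn) e (by simpa using hn') _ (mul_mem hu h5)
      generalize u * (n⁻¹ * u * n) = w at h6 h7 ⊢
      calc b * w = b * (n⁻¹ * w * n) := by rw [h6]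
        _ = (b * n⁻¹) * w * n := by group
        _ = w * b := by rw [← h7]; group
  have hP : PM (P : Subgroup G) := ⟨fun n hn => (em _).imp mem_cent_iff.1 (h4 n hn), by
    obtain ⟨t, ht, ht', -⟩ := relIndex_eq_two_iff_exists_notMem_and.1 h2
    exact ⟨t, ht, h4 t ht ht'⟩⟩
  have hf := QuotientGroup.mk'_surjective (pPrimeCore p G)
  have hn := core hp2 (P.mapSurjective hf) (map_isMulCommutative _ _) (fun e => hnc ?_) ⟨fun m hm => ?_, ?_⟩
    (Solv.pPrimeCore_quotient_pPrimeCore p G)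
  · rw [LieM.pLengthLE_one_iff, Solv.pCore_eq_of_normal (P.mapSurjective hf)]
    exact (hp.out.coprime_iff_not_dvd.2 (P.mapSurjective hf).not_dvd_index).symm
  · have : IsCyclic ((P : Subgroup G).map (QuotientGroup.mk' (pPrimeCore p G))) := e
    refine isCyclic_of_injective ((QuotientGroup.mk' (pPrimeCore p G)).subgroupMap P) ?_
    rw [injective_iff_map_eq_one]
    intro u hu
    exact Subtype.ext ((Solv.inf_pPrimeCore_eq_bot P.isPGroup').le
      ⟨u.2, (QuotientGroup.eq_one_iff _).1 (congrArg Subtype.val hu)⟩)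
  · obtain ⟨n, hn, rfl⟩ := lift_norm hf P hm
    refine (hP.pm n hn).imp ?_ ?_ <;> rintro e _ ⟨u, hu, rfl⟩ <;>
      rw [← map_inv, ← map_mul, ← map_mul, e u hu]
    rw [map_inv]
  · obtain ⟨t, ht, e⟩ := hP.ex
    refine ⟨_, le_normalizer_map _ ⟨t, ht, rfl⟩, ?_⟩
    rintro _ ⟨u, hu, rfl⟩
    rw [← map_inv, ← map_mul, ← map_mul, e u hu, map_inv]

end Cfsg.Agent.ST
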