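import Mathlib

/-!
A central extension of `G` by a group of order `p` in which an abelian non-cyclic Sylow `p`-subgroup, on which
fusion acts by `±1`, becomes non-abelian (`exists_ext`): the corestriction of a bilinear cocycle.
-/

set_option autoImplicit false

namespace Cfsg.Agent.ST

open Subgroup

universe u

section Ext
variable {R : Type} [CommRing R] {G : Type u} [Group G]

/-- A normalized 2-cocycle. -/
structure IsC (C : G → G → R) : Prop where
  assoc : ∀ g h k, C g h + C (g * h) k = C h k + C g (h * k)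
  one : ∀ g, C 1 g = 0

/-- The central extension defined by a cocycle. -/
@[ext] structure CExt {C : G → G → R} (_h : IsC C) where
  a : R
  g : G

variable {C : G → G → R} {h : IsC C}

instance instSTMul : Mul (CExt h) := ⟨fun x y => ⟨x.a + y.a + C x.g y.g, x.g * y.g⟩⟩
instance instSTOne : One (CExt h) := ⟨⟨0, 1⟩⟩
instance instSTInv : Inv (CExt h) := ⟨fun x => ⟨-x.a - C x.g⁻¹ x.g, x.g⁻¹⟩⟩

@[simp] lemma CExt.mul_a (x y : CExt h) : (x * y).a = x.a + y.a + C x.g y.g := rfl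
@[simp] lemma CExt.mul_g (x y : CExt h) : (x * y).g = x.g * y.g := rfl
@[simp] lemma CExt.one_a : (1 : CExt h).a = 0 := rfl
@[simp] lemma CExt.one_g : (1 : CExt h).g = 1 := rfl
@[simp] lemma CExt.inv_a (x : CExt h) : x⁻¹.a = -x.a - C x.g⁻¹ x.g := rfl
@[simp] lemma CExt.inv_g (x : CExt h) : x⁻¹.g = x.g⁻¹ := rfl

instance instSTGroup : Group (CExt h) := Group.ofLeftAxioms
  (fun x y z => CExt.ext (by
    simp only [CExt.mul_a, CExt.mul_g]
    linear_combination h.assoc x.g y.g z.g) (mul_assoc _ _ _))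
  (fun x => CExt.ext (by simp [h.one]) (by simp))
  (fun x => CExt.ext (by simp only [CExt.mul_a, CExt.inv_a, CExt.inv_g, CExt.one_a]; ring) (by simp))

lemma IsC.one' (h : IsC C) (g : G) : C g 1 = 0 := by
  have := h.assoc g 1 1
  simpa [h.one] using this

instance instSTFinite [Finite R] [Finite G] : Finite (CExt h) :=
  Finite.of_injective (fun x : CExt h => (x.a, x.g)) fun _ _ e =>
    CExt.ext (congrArg Prod.fst e) (congrArg Prod.snd e)

/-- The projection. -/
def CExt.proj (h : IsC C) : CExt h →* G := MonoidHom.mk' CExt.g fun _ _ => rfl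

lemma CExt.pow_mk (a : R) (n : ℕ) : (⟨a, 1⟩ : CExt h) ^ n = ⟨n • a, 1⟩ := by
  induction n with
  | zero => exact CExt.ext (by simp) rfl
  | succ n ih => rw [pow_succ, ih]; exact CExt.ext (by simp [h.one, add_mul]) (by simp)

end Ext

section Cores
variable {R : Type} [CommRing R] {G : Type u} [Group G] {P : Subgroup G}

/-- `φ` is additive on `P`. -/
def AddOn (P : Subgroup G) (φ : G → R) : Prop := ∀ u ∈ P, ∀ v ∈ P, φ (u * v) = φ u + φ v

lemma AddOn.one {φ : G → R} (h : AddOn P φ) : φ 1 = 0 := by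
  simpa using h 1 (one_mem _) 1 (one_mem _)

lemma AddOn.inv {φ : G → R} (h : AddOn P φ) {u : G} (hu : u ∈ P) : φ u⁻¹ = -φ u := by
  have := h u hu u⁻¹ (inv_mem hu)
  rw [mul_inv_cancel, h.one] at this
  linear_combination -this

lemma exists_F (hs : ∀ g : G, (∀ d ∈ P, g⁻¹ * d * g ∈ P → g⁻¹ * d * g = d) ∨
    (∀ d ∈ P, g⁻¹ * d * g ∈ P → g⁻¹ * d * g = d⁻¹)) :
    ∃ e : G → R, (∀ g, e g * e g = 1) ∧ (∀ g, ∀ a ∈ P, e (a * g) = e g) ∧
      ∀ φ : G → R, AddOn P φ → ∃ F : G → R, ∀ g, ∀ a ∈ P, ∀ b ∈ P,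
        F (a * g * b) = e g * φ a + F g + φ b := by
  have h1 : ∀ g : G, ∃ e : R, e * e = 1 ∧ ∀ φ : G → R, AddOn P φ → ∀ d ∈ P, g⁻¹ * d * g ∈ P →
      φ (g⁻¹ * d * g) = e * φ d := fun g => by
    rcases hs g with h | h
    · exact ⟨1, by simp, fun φ _ d hd h' => by rw [h d hd h', one_mul]⟩
    · exact ⟨-1, by simp, fun φ hφ d hd h' => by rw [h d hd h', hφ.inv hd, neg_one_mul]⟩
  choose e he1 he2 using h1
  let r : G → G := fun g => (DoubleCoset.mk P P g).out
  have hr : ∀ g, ∀ a ∈ P, ∀ b ∈ P, r (a * g * b) = r g := fun g a ha b hb =>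
    congrArg Quotient.out ((DoubleCoset.eq P P g _).2 ⟨a, ha, b, hb, rfl⟩).symm
  have h2 : ∀ g, ∃ u ∈ P, ∃ v ∈ P, g = u * r g * v := fun g =>
    (DoubleCoset.eq P P (r g) g).1 (DoubleCoset.out_eq' P P _)
  choose u hu v hv huv using h2
  refine ⟨fun g => e (r g), fun g => he1 _, fun g a ha => by
    have := hr g a ha 1 (one_mem _)
    rw [mul_one] at this
    simp only [this], fun φ hφ => ⟨fun g => e (r g) * φ (u g) + φ (v g), fun g a ha b hb => ?_⟩⟩
  have h3 := huv (a * g * b)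
  rw [hr g a ha b hb] at h3
  have h4 : (r g)⁻¹ * ((u (a * g * b))⁻¹ * (a * u g)) * r g = v (a * g * b) * (v g * b)⁻¹ := by
    have h5 : a * (u g * r g * v g) * b = u (a * g * b) * r g * v (a * g * b) := by rw [← huv g, ← h3]
    calc _ = (r g)⁻¹ * (u (a * g * b))⁻¹ * (a * (u g * r g * v g) * b) * (v g * b)⁻¹ := by group
      _ = _ := by rw [h5]; group
  have h6 := he2 (r g) φ hφ _ (mul_mem (inv_mem (hu (a * g * b))) (mul_mem ha (hu g)))
    (h4 ▸ mul_mem (hv _) (inv_mem (mul_mem (hv g) hb)))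
  rw [h4, hφ _ (hv _) _ (inv_mem (mul_mem (hv g) hb)), hφ.inv (mul_mem (hv g) hb), hφ _ (hv g) _ hb,
    hφ _ (inv_mem (hu _)) _ (mul_mem ha (hu g)), hφ.inv (hu _), hφ _ ha _ (hu g)] at h6
  simp only [hr g a ha b hb]
  linear_combination h6

lemma exists_coc [Finite G] (hs : ∀ g : G, (∀ d ∈ P, g⁻¹ * d * g ∈ P → g⁻¹ * d * g = d) ∨
    (∀ d ∈ P, g⁻¹ * d * g ∈ P → g⁻¹ * d * g = d⁻¹)) {φ ψ : G → R} (hφ : AddOn P φ) (hψ : AddOn P ψ) :
    ∃ C : G → G → R, IsC C ∧ ∀ x ∈ P, ∀ y ∈ P, C x y = P.index * (φ x * ψ y) := by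
  obtain ⟨e, he1, he2, he3⟩ := exists_F (R := R) hs
  have := Fintype.ofFinite (G ⧸ P)
  have key : ∀ φ : G → R, AddOn P φ → ∃ τ : G → G ⧸ P → R, (∀ g h i, τ (g * h) i = τ g (h • i) + τ h i) ∧
      ∀ x ∈ P, ∀ k : G, τ x (k : G ⧸ P) = e k * φ x := fun φ hφ => by
    obtain ⟨F, hF⟩ := he3 φ hφ
    have h1 : ∀ g k : G, F (g * (k : G ⧸ P).out) - F (k : G ⧸ P).out = F (g * k) - F k := fun g k => by
      obtain ⟨b, hb⟩ := QuotientGroup.mk_out_eq_mul P k
      have h2 := hF (g * k) 1 (one_mem _) b b.2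
      have h3 := hF k 1 (one_mem _) b b.2
      rw [one_mul] at h2 h3
      rw [hb, ← mul_assoc, h2, h3, hφ.one]; ring
    refine ⟨fun g i => F (g * i.out) - F i.out, fun g h i => ?_, fun x hx k => ?_⟩
    · have : h • i = ((h * i.out : G) : G ⧸ P) := by
        rw [← smul_eq_mul, ← MulAction.Quotient.smul_coe, QuotientGroup.out_eq']
      simp only [this, h1, mul_assoc]; ring
    · have h2 := hF k x hx 1 (one_mem _)
      rw [mul_one, hφ.one] at h2
      simp only [h1, h2]; ring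
  obtain ⟨σ, hσ, hσ'⟩ := key φ hφ
  obtain ⟨τ, hτ, hτ'⟩ := key ψ hψ
  refine ⟨fun g h => ∑ i, σ g (h • i) * τ h i, ⟨fun g h k => ?_, fun g => ?_⟩, fun x hx y hy => ?_⟩
  · rw [← Equiv.sum_comp (MulAction.toPerm k)]
    simp only [← Finset.sum_add_distrib, hσ, hτ, mul_smul, MulAction.toPerm_apply]
    exact Finset.sum_congr rfl fun i _ => by ring
  · refine Finset.sum_eq_zero fun i _ => ?_
    have := hσ 1 1 (g • i)
    rw [mul_one, one_smul] at this
    rw [show σ 1 (g • i) = 0 by linear_combination -this, zero_mul]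
  · beta_reduce
    rw [Finset.sum_congr rfl (g := fun _ => φ x * ψ y) fun i _ => ?_]
    · rw [Finset.sum_const, nsmul_eq_mul, index_eq_card, Nat.card_eq_fintype_card, Finset.card_univ]
    obtain ⟨k, rfl⟩ := QuotientGroup.mk_surjective i
    rw [MulAction.Quotient.smul_coe, smul_eq_mul, hσ' x hx, hτ' y hy, he2 k y hy]
    linear_combination φ x * ψ y * he1 k

end Cores

section
variable {p : ℕ} [hp : Fact p.Prime]

lemma exists_two_homs {A : Type u} [CommGroup A] [Finite A] (hA : IsPGroup p A) (hc : ¬ IsCyclic A) :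
    ∃ (φ ψ : A →* Multiplicative (ZMod p)) (x y : A), φ x = Multiplicative.ofAdd 1 ∧
      ψ y = Multiplicative.ofAdd 1 ∧ φ y = 1 := by
  classical
  obtain ⟨ι, _, n, hn, ⟨e⟩⟩ := CommGroup.equiv_prod_multiplicative_zmod_of_finite A
  have hd : ∀ i, p ∣ n i := fun i => by
    obtain ⟨k, hk⟩ := IsPGroup.iff_orderOf.1 hA (e.symm (Pi.mulSingle i (Multiplicative.ofAdd 1)))
    rw [MulEquiv.orderOf_eq, ← MonoidHom.mulSingle_apply,
      orderOf_injective _ (fun a b e => Pi.mulSingle_injective (M := fun i => Multiplicative (ZMod (n i))) i e),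
      orderOf_ofAdd_eq_addOrderOf,
      ZMod.addOrderOf_one] at hk
    rcases k with _ | k
    · exact absurd (hk.trans (pow_zero p)) (hn i).ne'
    · rw [hk]; exact dvd_pow_self p k.succ_ne_zero
  have : Nontrivial ι := by
    by_contra h
    rw [not_nontrivial_iff_subsingleton] at h
    refine hc ((MulEquiv.isCyclic e).2 ?_)
    rcases isEmpty_or_nonempty ι with h' | ⟨⟨i⟩⟩
    · exact isCyclic_of_subsingleton
    · have : Unique ι := ⟨⟨i⟩, fun _ => Subsingleton.elim _ _⟩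
      exact (MulEquiv.isCyclic (MulEquiv.piUnique fun i => Multiplicative (ZMod (n i)))).2 inferInstance
  obtain ⟨i, j, hij⟩ := exists_pair_ne ι
  let f : ∀ i, A →* Multiplicative (ZMod p) := fun i =>
    ((AddMonoidHom.toMultiplicative (ZMod.castHom (hd i) (ZMod p)).toAddMonoidHom).comp
      (Pi.evalMonoidHom (fun i => Multiplicative (ZMod (n i))) i)).comp e.toMonoidHom
  have hf : ∀ i, f i (e.symm (Pi.mulSingle i (Multiplicative.ofAdd 1))) = Multiplicative.ofAdd 1 := fun i => by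
    simp [f, ZMod.cast_one (hd i)]
  exact ⟨f i, f j, _, _, hf i, hf j, by simp [f, Pi.mulSingle_eq_of_ne hij]⟩

variable {G : Type u} [Group G] [Finite G]

lemma sign_of_norm (P : Sylow p G) (hab : IsMulCommutative (P : Subgroup G))
    (hN : ∀ n ∈ normalizer ((P : Subgroup G) : Set G), ∀ u ∈ (P : Subgroup G),
      n⁻¹ * u * n = u ∨ n⁻¹ * u * n = u⁻¹) (g : G) :
    (∀ d ∈ (P : Subgroup G), g⁻¹ * d * g ∈ (P : Subgroup G) → g⁻¹ * d * g = d) ∨
    (∀ d ∈ (P : Subgroup G), g⁻¹ * d * g ∈ (P : Subgroup G) → g⁻¹ * d * g = d⁻¹) := by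
  have h1 : ∀ d ∈ (P : Subgroup G), g⁻¹ * d * g ∈ (P : Subgroup G) →
      g⁻¹ * d * g = d ∨ g⁻¹ * d * g = d⁻¹ := fun d hd h => by
    obtain ⟨n, hn, e⟩ := P.conj_eq_normalizer_conj_of_mem d g hd h
    exact e ▸ hN n hn d hd
  by_contra! h
  obtain ⟨⟨a, ha, ha', ha2⟩, b, hb, hb', hb2⟩ := h
  have ha3 := (h1 a ha ha').resolve_left ha2
  have hb3 := (h1 b hb hb').resolve_right hb2
  have e : g⁻¹ * (a * b) * g = (g⁻¹ * a * g) * (g⁻¹ * b * g) := by group
  rcases h1 (a * b) (mul_mem ha hb) (e ▸ mul_mem ha' hb') with h | h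
  · rw [e, ha3, hb3] at h
    exact ha2 (ha3.trans (mul_right_cancel h))
  · have hc : a * b = b * a := congrArg Subtype.val (hab.1.1 ⟨a, ha⟩ ⟨b, hb⟩)
    rw [e, ha3, hb3, hc, mul_inv_rev] at h
    exact hb2 (hb3.trans (mul_left_cancel h))

theorem exists_ext (P : Sylow p G) (hab : IsMulCommutative (P : Subgroup G))
    (hnc : ¬ IsCyclic (P : Subgroup G))
    (hN : ∀ n ∈ normalizer ((P : Subgroup G) : Set G), ∀ u ∈ (P : Subgroup G),
      n⁻¹ * u * n = u ∨ n⁻¹ * u * n = u⁻¹) :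
    ∃ (H : Type u) (_ : Group H) (_ : Finite H) (π : H →* G) (z x y : H), Function.Surjective π ∧
      z ∈ center H ∧ orderOf z = p ∧ π.ker = zpowers z ∧ π x ∈ (P : Subgroup G) ∧ y * x * y⁻¹ = z * x := by
  classical
  letI : CommGroup (P : Subgroup G) := { (inferInstance : Group (P : Subgroup G)) with mul_comm := hab.1.1 }
  obtain ⟨φ, ψ, x, y, h1, h2, h3⟩ := exists_two_homs P.isPGroup' hnc
  have key : ∀ φ : (P : Subgroup G) →* Multiplicative (ZMod p), AddOn (P : Subgroup G)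
      fun g => if h : g ∈ (P : Subgroup G) then (φ ⟨g, h⟩).toAdd else 0 := fun φ u hu v hv => by
    simp only [dif_pos hu, dif_pos hv, dif_pos (mul_mem hu hv)]
    rw [← toAdd_mul, ← map_mul]; rfl
  obtain ⟨C, hC, hC'⟩ := exists_coc (sign_of_norm P hab hN) (key φ) (key ψ)
  have e1 := hC' x x.2 y y.2
  have e2 := hC' y y.2 x x.2
  simp only [x.2, y.2, dif_pos, Subtype.coe_eta, h1, h2, h3, toAdd_ofAdd, toAdd_one, mul_one, zero_mul,
    mul_zero] at e1 e2
  have hi : ((P : Subgroup G).index : ZMod p) ≠ 0 := fun e =>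
    P.not_dvd_index ((ZMod.natCast_eq_zero_iff _ _).1 e)
  have hc : (x : G) * y = y * x := congrArg Subtype.val (hab.1.1 x y)
  refine ⟨CExt hC, inferInstance, inferInstance, CExt.proj hC, ⟨-(P : Subgroup G).index, 1⟩, ⟨0, x⟩, ⟨0, y⟩,
    fun g => ⟨⟨0, g⟩, rfl⟩, mem_center_iff.2 fun g => CExt.ext (by simp [hC.one, hC.one', add_comm]) (by simp),
    ?_, ?_, x.2, ?_⟩
  · refine orderOf_eq_prime ?_ fun e => hi (neg_eq_zero.1 (congrArg CExt.a e))
    rw [CExt.pow_mk]; exact CExt.ext (by simp) rfl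
  · ext ⟨a, g⟩
    constructor
    · rintro (rfl : g = 1)
      refine ⟨((-a / (P : Subgroup G).index).val : ℕ), ?_⟩
      simp only [zpow_natCast, CExt.pow_mk]
      refine CExt.ext ?_ rfl
      simp only [nsmul_eq_mul, ZMod.natCast_val, ZMod.cast_id', id]
      field_simp
    · rintro ⟨k, hk⟩
      rw [← hk]
      exact zpow_mem (show _ ∈ (CExt.proj hC).ker from rfl) k
  · rw [mul_inv_eq_iff_eq_mul]
    exact CExt.ext (by simp [e1, e2, hC.one]) (by simp [hc])

end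

end Cfsg.Agent.ST
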