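import Mathlib

/-!
Numerical lemmas for the Smith–Tyrer theorem (`fourier`, `gram`, `two_rows`, `final`).
-/

set_option autoImplicit false

namespace Cfsg.Agent.ST

open scoped ComplexConjugate

variable {I T : Type*}

open Classical in
lemma fourier (s : Finset I) {p : ℕ} (hp : 0 < p) (w : I → ℂ) (hw : ∀ i, w i ^ p = 1) (F : I → ℂ)
    (h : ∀ k, 0 < k → k < p → ∑ i ∈ s, w i ^ k * F i = 0) {ω : ℂ} (hω : ω ^ p = 1) :
    p * ∑ i ∈ s with w i = ω, F i = ∑ i ∈ s, F i := by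
  have h0 : ω ≠ 0 := fun e => by simp [e, hp.ne'] at hω
  have h1 : ∑ k ∈ Finset.range p, ω⁻¹ ^ k * ∑ i ∈ s, w i ^ k * F i = ∑ i ∈ s, F i := by
    rw [Finset.sum_eq_single 0 (fun k hk hk0 => by
      rw [h k (Nat.pos_of_ne_zero hk0) (Finset.mem_range.1 hk), mul_zero]) (by simp [hp.ne'])]
    simp
  rw [← h1, Finset.sum_filter, Finset.mul_sum]
  simp only [Finset.mul_sum]
  rw [Finset.sum_comm]
  refine Finset.sum_congr rfl fun i _ => ?_
  simp only [← mul_assoc, ← mul_pow, ← Finset.sum_mul]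
  split_ifs with e
  · simp [e, h0]
  · rw [geom_sum_eq (fun e' => e (by field_simp at e'; exact e')), mul_pow, inv_pow, hω, hw]; simp

open Classical in
lemma fourier' (s : Finset I) {p : ℕ} (hp : 0 < p) (w : I → ℂ) (hw : ∀ i, w i ^ p = 1) (F : I → ℂ)
    (h : ∀ k, 0 < k → k < p → ∑ i ∈ s, w i ^ k * F i = 0) {ω : ℂ} (hω : ω ^ p = 1) :
    ∑ i ∈ s with w i = ω, F i = ∑ i ∈ s with w i = 1, F i :=
  mul_left_cancel₀ (Nat.cast_ne_zero.2 hp.ne') ((fourier s hp w hw F h hω).trans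
    (fourier s hp w hw F h (one_pow p)).symm)

lemma gram [Fintype T] (s : Finset I) (v : I → T → ℂ) (η c₁ c₂ : T → ℂ) (r : ℕ)
    (hK : ∀ y y', ∑ i ∈ s, v i y * conj (v i y') =
      1 + η y * conj (η y') + r * ((1 + η y) * (1 + conj (η y'))))
    (h11 : ∑ y, c₁ y = 1) (h12 : ∑ y, c₁ y * η y = 0) (h21 : ∑ y, c₂ y = 0) (h22 : ∑ y, c₂ y * η y = 1)
    {A B : I → ℤ} (hA : ∀ i, ∑ y, c₁ y * v i y = A i) (hB : ∀ i, ∑ y, c₂ y * v i y = B i) :
    (∀ i ∈ s, ∀ y, v i y = A i + B i * η y) ∧ ∑ i ∈ s, (A i - B i) ^ 2 = 2 ∧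
      ∑ i ∈ s, A i * (A i - B i) = 1 := by
  have key : ∀ (c : T → ℂ) (D : I → ℤ), (∀ i, ∑ y, c y * v i y = D i) → ∀ y', ∑ i ∈ s, D i * conj (v i y') =
      (∑ y, c y) * (1 + r * (1 + conj (η y'))) + (∑ y, c y * η y) * (conj (η y') + r * (1 + conj (η y'))) :=
    fun c D hD y' => by
      simp only [← hD, Finset.sum_mul]
      rw [Finset.sum_comm, ← Finset.sum_add_distrib]
      refine Finset.sum_congr rfl fun y _ => ?_
      simp only [mul_assoc, ← Finset.mul_sum, hK]; ring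
  have key' : ∀ (D : I → ℤ) (a b : ℂ), (∀ y, ∑ i ∈ s, D i * conj (v i y) = conj a + conj b * conj (η y)) →
      (∀ y, ∑ i ∈ s, D i * v i y = a + b * η y) := fun D a b h y => by
    simpa using congrArg conj (h y)
  have a1 := key' A (1 + r) r fun y => by rw [key c₁ A hA, h11, h12]; simp; ring
  have b1 := key' B r (1 + r) fun y => by rw [key c₂ B hB, h21, h22]; simp; ring
  have key2 : ∀ (c : T → ℂ) (D E : I → ℤ) (a b : ℂ), (∀ i, ∑ y, c y * v i y = D i) →
      (∀ y, ∑ i ∈ s, E i * v i y = a + b * η y) →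
      ∑ i ∈ s, (E i * D i : ℂ) = a * ∑ y, c y + b * ∑ y, c y * η y := fun c D E a b hD hE => by
    simp only [← hD, Finset.mul_sum]
    rw [Finset.sum_comm, ← Finset.sum_add_distrib]
    refine Finset.sum_congr rfl fun y _ => ?_
    simp only [mul_left_comm _ (c y), ← Finset.mul_sum, hE]; ring
  have aa := key2 c₁ A A _ _ hA a1
  have ab := key2 c₂ B A _ _ hB a1
  have bb := key2 c₂ B B _ _ hB b1
  rw [h11, h12] at aa
  rw [h21, h22] at ab bb
  refine ⟨fun i hi y => ?_, ?_, ?_⟩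
  · have h1 : ∑ i ∈ s, (Complex.normSq (v i y - (A i + B i * η y)) : ℂ) = 0 := by
      have c1 := congrArg conj (a1 y)
      have c2 := congrArg conj (b1 y)
      simp only [map_sum, map_mul, map_intCast, map_add, map_one, map_natCast] at c1 c2
      rw [Finset.sum_congr rfl (g := fun i => v i y * conj (v i y) - A i * v i y - conj (η y) * (B i * v i y)
        - A i * conj (v i y) - η y * (B i * conj (v i y)) + A i * A i + (η y + conj (η y)) * (A i * B i) +
          η y * conj (η y) * (B i * B i)) fun i _ => by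
          rw [← Complex.mul_conj]; simp only [map_sub, map_add, map_mul, map_intCast]; ring]
      simp only [Finset.sum_add_distrib, Finset.sum_sub_distrib, ← Finset.mul_sum, hK, a1, b1, c1, c2, aa, ab, bb]
      ring
    have h2 : ∑ i ∈ s, Complex.normSq (v i y - (A i + B i * η y)) = 0 := by exact_mod_cast h1
    exact sub_eq_zero.1 (Complex.normSq_eq_zero.1
      ((Finset.sum_eq_zero_iff_of_nonneg fun _ _ => Complex.normSq_nonneg _).1 h2 i hi))
  · have : ∑ i ∈ s, ((A i - B i) ^ 2 : ℂ) = 2 := by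
      rw [Finset.sum_congr rfl (g := fun i => (A i * A i - 2 * (A i * B i) + B i * B i : ℂ)) fun i _ => by ring]
      simp only [Finset.sum_add_distrib, Finset.sum_sub_distrib, ← Finset.mul_sum, aa, ab, bb]
      ring
    exact_mod_cast this
  · have : ∑ i ∈ s, (A i * (A i - B i) : ℂ) = 1 := by
      simp only [mul_sub, Finset.sum_sub_distrib, aa, ab]
      ring
    exact_mod_cast this

lemma two_rows (s : Finset I) {D : I → ℤ} (h : ∑ i ∈ s, D i ^ 2 = 2) :
    ∃ i ∈ s, ∃ j ∈ s, D i ^ 2 = 1 ∧ D j ^ 2 = 1 ∧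
      ∀ {R : Type} [CommRing R] (f : I → R), ∑ k ∈ s, D k * f k = D i * f i + D j * f j := by
  classical
  have h1 : ∀ i ∈ s, D i ≠ 0 → D i ^ 2 = 1 := fun i hi h0 => by
    have := h ▸ Finset.single_le_sum (f := fun i => D i ^ 2) (fun _ _ => sq_nonneg _) hi
    have h3 : D i < 2 := by nlinarith
    have h4 : -2 < D i := by nlinarith
    interval_cases D i <;> simp_all
  have h2 : (s.filter (D · ≠ 0)).card = 2 := by
    rw [← Finset.sum_filter_of_ne (p := (D · ≠ 0)) (fun i _ h e => h (by simp [e])),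
      Finset.sum_congr rfl (g := fun _ => 1) fun i hi =>
        h1 i (Finset.mem_filter.1 hi).1 (Finset.mem_filter.1 hi).2] at h
    simp only [Finset.sum_const, nsmul_eq_mul, mul_one] at h
    exact_mod_cast h
  obtain ⟨i, j, hij, e⟩ := Finset.card_eq_two.1 h2
  have hi : i ∈ s.filter (D · ≠ 0) := by simp [e]
  have hj : j ∈ s.filter (D · ≠ 0) := by simp [e]
  rw [Finset.mem_filter] at hi hj
  refine ⟨i, hi.1, j, hj.1, h1 i hi.1 hi.2, h1 j hj.1 hj.2, fun f => ?_⟩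
  rw [← Finset.sum_filter_of_ne (p := (D · ≠ 0)) (fun i _ h e => h (by simp [e])), e, Finset.sum_pair hij]

lemma final_alg {m X e : ℂ} (h1 : m + 1 + m * X ≠ 0) (h2 : m + (m + 1) * X ≠ 0) (hX : X ≠ 0)
    (h : (m + 1 + m * e) ^ 2 / (m + 1 + m * X) - (m + (m + 1) * e) ^ 2 / (m + (m + 1) * X) = 1 - e ^ 2 / X) :
    (X - e) ^ 2 * (m * (m + 1)) * (1 - X) = 0 := by
  rw [div_sub_div _ _ h1 h2, one_sub_div hX, div_eq_div_iff (mul_ne_zero h1 h2) hX] at h
  linear_combination h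

theorem final [Fintype T] (s : Finset I) (v : I → T → ℂ) (η c₁ c₂ : T → ℂ) (r : ℕ)
    (hK : ∀ y y', ∑ i ∈ s, v i y * conj (v i y') =
      1 + η y * conj (η y') + r * ((1 + η y) * (1 + conj (η y'))))
    (h11 : ∑ y, c₁ y = 1) (h12 : ∑ y, c₁ y * η y = 0) (h21 : ∑ y, c₂ y = 0) (h22 : ∑ y, c₂ y * η y = 1)
    {A B : I → ℤ} (hA : ∀ i, ∑ y, c₁ y * v i y = A i) (hB : ∀ i, ∑ y, c₂ y * v i y = B i)
    {o t : T} {X : ℤ} (hX : η o = X) (hX0 : X ≠ 0) {p : ℕ} (hp : p.Prime) (hpX : (p : ℤ) ∣ X - 1)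
    (hd : ∀ i ∈ s, ∃ d : ℤ, v i o = d ∧ d ≠ 0 ∧ (p : ℤ) ∣ d) {b : ℂ}
    (hS : ∀ y, ∑ i ∈ s, v i y * (v i t ^ 2 / v i o) = 1 + η y * (η t ^ 2 / X) + (1 + η y) * b) :
    η t = X ∨ X = 1 := by
  obtain ⟨hv, h1, h2⟩ := gram s v η c₁ c₂ r hK h11 h12 h21 h22 hA hB
  obtain ⟨i, hi, j, hj, hi1, hj1, hs⟩ := two_rows s h1
  have h3 : ∑ k ∈ s, ((A k - B k : ℤ) : ℂ) * (v k t ^ 2 / v k o) = 1 - η t ^ 2 / X := by
    have : ∑ y, (c₁ y - c₂ y) * ∑ i ∈ s, v i y * (v i t ^ 2 / v i o) = 1 - η t ^ 2 / X := by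
      rw [Finset.sum_congr rfl (g := fun y => (1 + b) * c₁ y - (1 + b) * c₂ y + (η t ^ 2 / X + b) * (c₁ y * η y)
        - (η t ^ 2 / X + b) * (c₂ y * η y)) fun y _ => by rw [hS]; ring]
      simp only [Finset.sum_add_distrib, Finset.sum_sub_distrib, ← Finset.mul_sum, h11, h12, h21, h22]
      ring
    rw [← this]
    simp only [Finset.mul_sum]
    rw [Finset.sum_comm]
    refine Finset.sum_congr rfl fun k _ => ?_
    simp only [← mul_assoc, ← Finset.sum_mul, sub_mul, Finset.sum_sub_distrib, hA, hB]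
    push_cast; ring
  have h4 := hs A
  simp only [mul_comm (A _), Int.cast_id] at h2 h4
  rw [h2] at h4
  rw [hs] at h3
  obtain ⟨d, hd1, hd2, hd3⟩ := hd i hi
  obtain ⟨d', hd1', hd2', -⟩ := hd j hj
  set m : ℤ := (A i - B i) * B i with hm
  have e1 : A i = (A i - B i) * (m + 1) := by rw [hm]; linear_combination (-A i) * hi1 + (A i - B i) * hi1
  have e2 : B i = (A i - B i) * m := by rw [hm]; linear_combination (-B i) * hi1
  have e3 : A j = -(A j - B j) * m := by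
    rw [hm]; linear_combination (-A j) * hj1 - (A j - B j) * h4 - (A j - B j) * hi1
  have e4 : B j = -(A j - B j) * (m + 1) := by linear_combination e3
  generalize A i - B i = σ at *
  generalize A j - B j = τ at *
  have f1 : ∀ y, v i y = σ * (m + 1 + m * η y) := fun y => by rw [hv i hi, e1, e2]; push_cast; ring
  have f2 : ∀ y, v j y = -τ * (m + (m + 1) * η y) := fun y => by rw [hv j hj, e3, e4]; push_cast; ring
  have g1 : d = σ * (m + 1 + m * X) := by rw [f1, hX] at hd1; exact_mod_cast hd1.symm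
  have g2 : d' = -τ * (m + (m + 1) * X) := by rw [f2, hX] at hd1'; exact_mod_cast hd1'.symm
  have k1 : (m + 1 + m * X : ℂ) ≠ 0 := fun e => hd2 (by
    rw [g1, show m + 1 + m * X = 0 by exact_mod_cast e, mul_zero])
  have k2 : (m + (m + 1) * X : ℂ) ≠ 0 := fun e => hd2' (by
    rw [g2, show m + (m + 1) * X = 0 by exact_mod_cast e, mul_zero])
  have hσ : σ = 1 ∨ σ = -1 := sq_eq_one_iff.1 hi1
  have hτ : τ = 1 ∨ τ = -1 := sq_eq_one_iff.1 hj1
  have h5 := final_alg (e := η t) k1 k2 (Int.cast_ne_zero.2 hX0) (by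
    rw [← h3, f1, f1, f2, f2, hX]
    rcases hσ with rfl | rfl <;> rcases hτ with rfl | rfl <;> field_simp <;> push_cast <;> ring)
  have h6 : (p : ℤ) ∣ 2 * m + 1 := by
    have : 2 * m + 1 = σ * d - m * (X - 1) := by rw [g1]; linear_combination (-(m + 1 + m * X)) * hi1
    rw [this]; exact dvd_sub (hd3.mul_left _) (hpX.mul_left _)
  have h7 : (m * (m + 1) : ℂ) ≠ 0 := fun e => by
    have h8 : m * (m + 1) = 0 := by exact_mod_cast e
    have h9 : (p : ℤ) ∣ 1 := by
      rcases mul_eq_zero.1 h8 with e | e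
      · simpa [e] using h6
      · rw [show m = -1 by omega] at h6; simpa using h6
    exact hp.ne_one (by exact_mod_cast Int.eq_one_of_dvd_one (by positivity) h9)
  rcases mul_eq_zero.1 h5 with h | h
  · exact Or.inl (sub_eq_zero.1 (pow_eq_zero_iff two_ne_zero |>.1 ((mul_eq_zero.1 h).resolve_right h7))).symm
  · exact Or.inr (by exact_mod_cast (sub_eq_zero.1 h).symm)

end Cfsg.Agent.ST
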